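import Cfsg.Agent.H883.BR.Defs

/-!
# HUB BR, E2: `G`-invariant subspaces of `End V` contain `[a, X]` and `a X a` (helper168)
-/

set_option autoImplicit false

namespace Cfsg.Agent.H168.BR

open Cfsg.Agent.H883.BR

universe u v w

section

variable {K : Type u} [Field K] {G : Type w} [Group G] {V : Type v} [AddCommGroup V] [Module K V]
  {ρ : G →* Module.End K V}

/-- the inverse of `1 + t a` -/
theorem rho_inv_of_root {a : Module.End K V} (ha : a * a = 0) {g : G} {t : K} (hg : ρ g = 1 + t • a) :
    ρ g⁻¹ = 1 - t • a := by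
  have h1 : ρ g⁻¹ * ρ g = 1 := by rw [← map_mul, inv_mul_cancel, map_one]
  have h2 : ρ g * (1 - t • a) = 1 := by
    rw [hg, add_mul, one_mul, mul_sub, mul_one, smul_mul_smul_comm, ha, smul_zero, sub_zero, sub_add_cancel]
  calc ρ g⁻¹ = ρ g⁻¹ * (ρ g * (1 - t • a)) := by rw [h2, mul_one]
    _ = ρ g⁻¹ * ρ g * (1 - t • a) := by rw [mul_assoc]
    _ = 1 - t • a := by rw [h1, one_mul]

theorem ad_root {a : Module.End K V} (ha : a * a = 0) {g : G} {t : K} (hg : ρ g = 1 + t • a) (X : Module.End K V) :
    ad ρ g X = X + t • (a * X - X * a) - (t * t) • (a * X * a) := by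
  rw [ad_apply, hg, rho_inv_of_root ha hg]
  simp only [add_mul, mul_sub, mul_one, one_mul, smul_mul_assoc, mul_smul_comm, smul_sub, smul_add, mul_smul t t]
  abel

/-- E2: `G`-invariant subspaces contain root elements -/
theorem root_mem {F : Subfield K} [Finite F] (h3 : 3 ≤ Nat.card F)
    {S : Submodule K (Module.End K V)} (hS : Inv (ad ρ) ⊤ S) {a X : Module.End K V} (ha : Rt ρ F ⊤ a) (hX : X ∈ S) :
    a * X - X * a ∈ S ∧ a * X * a ∈ S := by
  obtain ⟨ha2, hroot⟩ := ha
  have key : ∀ t ∈ F, t • (a * X - X * a) - (t * t) • (a * X * a) ∈ S := by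
    intro t ht
    obtain ⟨g, -, hg⟩ := hroot t ht
    have h1 := hS g (Subgroup.mem_top g) X hX
    rw [ad_root ha2 hg] at h1
    have h2 := S.sub_mem h1 hX
    have e : X + t • (a * X - X * a) - (t * t) • (a * X * a) - X =
        t • (a * X - X * a) - (t * t) • (a * X * a) := by abel
    rwa [e] at h2
  obtain ⟨t, ht, ht0, ht1⟩ : ∃ t ∈ F, t ≠ 0 ∧ t ≠ 1 := by
    by_contra hcon
    push Not at hcon
    have := Fintype.ofFinite F
    have h4 : Fintype.card F ≤ 2 := by
      classical
      have h5 : (Finset.univ : Finset F) ⊆ {0, 1} := by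
        intro x _
        rw [Finset.mem_insert, Finset.mem_singleton]
        by_cases hx : (x : K) = 0
        · exact Or.inl (Subtype.ext hx)
        · exact Or.inr (Subtype.ext (hcon x x.2 hx))
      calc Fintype.card F = (Finset.univ : Finset F).card := rfl
        _ ≤ ({0, 1} : Finset F).card := Finset.card_le_card h5
        _ ≤ 2 := Finset.card_le_two
    rw [Nat.card_eq_fintype_card] at h3
    omega
  have k1 := key 1 F.one_mem
  rw [one_smul, mul_one, one_smul] at k1
  have k2 := key t ht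
  have h4 : a * X * a ∈ S := by
    have h5 := S.sub_mem k2 (S.smul_mem t k1)
    have e : t • (a * X - X * a) - (t * t) • (a * X * a) - t • (a * X - X * a - a * X * a) =
        (t * (1 - t)) • (a * X * a) := by
      rw [smul_sub t (a * X - X * a), mul_sub, mul_one, sub_smul]
      abel
    rw [e] at h5
    have ht2 : t * (1 - t) ≠ 0 := mul_ne_zero ht0 (sub_ne_zero.2 (Ne.symm ht1))
    have h6 := S.smul_mem (t * (1 - t))⁻¹ h5
    rwa [smul_smul, inv_mul_cancel₀ ht2, one_smul] at h6
  refine ⟨?_, h4⟩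
  have h5 := S.add_mem k1 h4
  rwa [sub_add_cancel] at h5

end

end Cfsg.Agent.H168.BR
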