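import Cfsg.Agent.H168.BR.RootMem

/-!
# HUB BR, E1: `TPrim` from root elements (helper168)

`C = cent ρ N`, `D` its centraliser in `End V`. `C` is von Neumann regular; a subspace invariant under `N` and `C` is the
image of an idempotent of `C ∩ D`; the idempotents of `C ∩ D` are `0, 1` as `G` has no proper subgroup of index at most
`dim V`. For the minimal rank `l` of the elements `≠ 0` of `C`: `dim V ≤ l * rank d` for all `0 ≠ d ∈ D`.
-/

set_option autoImplicit false

namespace Cfsg.Agent.H168.BR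

open Cfsg.Agent.H883.BR Module

universe u v w

section

variable {K : Type u} [Field K] {G : Type w} [Group G] {V : Type v} [AddCommGroup V] [Module K V]
  {ρ : G →* Module.End K V} {N : Subgroup G}

theorem one_mem_cent : (1 : Module.End K V) ∈ cent ρ N := fun n _ => by rw [one_mul, mul_one]

theorem mul_mem_cent {X Y : Module.End K V} (hX : X ∈ cent ρ N) (hY : Y ∈ cent ρ N) : X * Y ∈ cent ρ N := by
  intro n hn
  rw [mul_assoc, mem_cent.1 hY n hn, ← mul_assoc, mem_cent.1 hX n hn, mul_assoc]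

/-- the centraliser of `cent ρ N` -/
def dc (ρ : G →* Module.End K V) (N : Subgroup G) : Submodule K (Module.End K V) where
  carrier := {d | ∀ c ∈ cent ρ N, d * c = c * d}
  zero_mem' := fun n _ => by rw [zero_mul, mul_zero]
  add_mem' := fun {X Y} hX hY n hn => by rw [add_mul, mul_add, hX n hn, hY n hn]
  smul_mem' := fun c X hX n hn => by rw [smul_mul_assoc, mul_smul_comm, hX n hn]

theorem mem_dc {d : Module.End K V} : d ∈ dc ρ N ↔ ∀ c ∈ cent ρ N, d * c = c * d := Iff.rfl

theorem rho_mem_dc {n : G} (hn : n ∈ N) : ρ n ∈ dc ρ N := fun _ hc => (hc n hn).symm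

theorem mul_mem_dc {X Y : Module.End K V} (hX : X ∈ dc ρ N) (hY : Y ∈ dc ρ N) : X * Y ∈ dc ρ N := by
  intro n hn
  rw [mul_assoc, hY n hn, ← mul_assoc, hX n hn, mul_assoc]

theorem ad_mul (g : G) (X Y : Module.End K V) : ad ρ g (X * Y) = ad ρ g X * ad ρ g Y := by
  have h1 : ρ g⁻¹ * ρ g = 1 := by rw [← map_mul, inv_mul_cancel, map_one]
  rw [ad_apply, ad_apply, ad_apply]
  calc ρ g * (X * Y) * ρ g⁻¹ = ρ g * X * 1 * Y * ρ g⁻¹ := by simp only [mul_assoc, one_mul]
    _ = _ := by rw [← h1]; simp only [mul_assoc]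

theorem ad_ad_inv (g : G) (X : Module.End K V) : ad ρ g (ad ρ g⁻¹ X) = X := by
  have h1 : (ad ρ g * ad ρ g⁻¹) X = X := by rw [← map_mul, mul_inv_cancel, map_one]; rfl
  exact h1

theorem dc_inv (hC : Inv (ad ρ) ⊤ (cent ρ N)) : Inv (ad ρ) ⊤ (dc ρ N) := by
  intro g _ d hd c hc
  have h1 : ad ρ g⁻¹ c ∈ cent ρ N := hC g⁻¹ (Subgroup.mem_top _) c hc
  rw [← ad_ad_inv (ρ := ρ) g c, ← ad_mul, ← ad_mul, hd _ h1]

/-- projections -/
theorem exists_proj (hs : Ssm ρ N) {U : Submodule K V} (hU : Inv ρ N U) :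
    ∃ π ∈ cent ρ N, (∀ v, π v ∈ U) ∧ (∀ u ∈ U, π u = u) := by
  obtain ⟨U', hU', hc⟩ := hs U hU
  refine ⟨U.projection U' hc, ?_, fun v => Submodule.projection_apply_mem hc v,
    fun u hu => Submodule.projection_apply_of_mem_left hc hu⟩
  intro n hn
  refine LinearMap.ext fun v => ?_
  change U.projection U' hc (ρ n v) = ρ n (U.projection U' hc v)
  have h1 : v = U.projection U' hc v + (v - U.projection U' hc v) := by abel
  have h2 : v - U.projection U' hc v ∈ U' := Submodule.sub_projection_mem hc v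
  have h3 : U.projection U' hc (ρ n (v - U.projection U' hc v)) = 0 :=
    (Submodule.projection_apply_eq_zero_iff hc).2 (hU' n hn _ h2)
  have h4 : U.projection U' hc (ρ n (U.projection U' hc v)) = ρ n (U.projection U' hc v) :=
    Submodule.projection_apply_of_mem_left hc (hU n hn _ (Submodule.projection_apply_mem hc v))
  conv_lhs => rw [h1, map_add, map_add, h3, h4, add_zero]

/-- `N`-invariant subspaces are `D`-invariant -/
theorem dc_apply_mem (hs : Ssm ρ N) {U : Submodule K V} (hU : Inv ρ N U) {d : Module.End K V} (hd : d ∈ dc ρ N) {u : V}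
    (hu : u ∈ U) : d u ∈ U := by
  obtain ⟨π, hπ, h1, h2⟩ := exists_proj hs hU
  have h3 : d * π = π * d := hd π hπ
  have h4 : d (π u) = π (d u) := LinearMap.congr_fun h3 u
  rw [h2 u hu] at h4
  rw [h4]
  exact h1 _

/-- `C` is von Neumann regular -/
theorem regular (hs : Ssm ρ N) {f : Module.End K V} (hf : f ∈ cent ρ N) : ∃ s ∈ cent ρ N, f * s * f = f := by
  have hker : Inv ρ N (LinearMap.ker f) := by
    intro n hn v hv
    rw [LinearMap.mem_ker] at hv ⊢
    have h1 : f (ρ n v) = ρ n (f v) := LinearMap.congr_fun (hf n hn) v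
    rw [h1, hv, map_zero]
  have hran : Inv ρ N (LinearMap.range f) := by
    rintro n hn _ ⟨v, rfl⟩
    exact ⟨ρ n v, LinearMap.congr_fun (hf n hn) v⟩
  obtain ⟨Y, hY, hc⟩ := hs _ hker
  obtain ⟨π, hπ, hπ1, hπ2⟩ := exists_proj hs hran
  have hinj : Function.Injective (f.comp Y.subtype) := by
    rw [← LinearMap.ker_eq_bot, LinearMap.ker_eq_bot']
    intro y hy
    have h1 : (y : V) ∈ LinearMap.ker f ⊓ Y := ⟨hy, y.2⟩
    rw [hc.inf_eq_bot] at h1
    exact Subtype.ext h1
  obtain ⟨t, ht⟩ := (f.comp Y.subtype).exists_leftInverse_of_injective (LinearMap.ker_eq_bot.2 hinj)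
  have ht' : ∀ y : Y, t (f y) = y := fun y => LinearMap.congr_fun ht y
  -- for all `v` there is `y ∈ Y` with `f y = π v`
  have hy : ∀ v : V, ∃ y : Y, f y = π v := by
    intro v
    obtain ⟨x, hx⟩ := hπ1 v
    have h1 : x ∈ LinearMap.ker f ⊔ Y := by rw [hc.sup_eq_top]; trivial
    obtain ⟨a, ha, b, hb, hab⟩ := Submodule.mem_sup.1 h1
    refine ⟨⟨b, hb⟩, ?_⟩
    rw [← hx, ← hab, map_add, LinearMap.mem_ker.1 ha, zero_add]
  set s : Module.End K V := (Y.subtype.comp t).comp π with hsdef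
  have hs1 : ∀ (v : V) (y : Y), f y = π v → s v = y := by
    intro v y hyv
    change ((t (π v) : Y) : V) = y
    rw [← hyv, ht']
  refine ⟨s, ?_, ?_⟩
  · intro n hn
    refine LinearMap.ext fun v => ?_
    change s (ρ n v) = ρ n (s v)
    obtain ⟨y, hyv⟩ := hy v
    rw [hs1 v y hyv]
    refine hs1 (ρ n v) ⟨ρ n y, hY n hn y y.2⟩ ?_
    have h1 : f (ρ n y) = ρ n (f y) := LinearMap.congr_fun (hf n hn) y
    have h2 : π (ρ n v) = ρ n (π v) := LinearMap.congr_fun (hπ n hn) v
    change f (ρ n y) = π (ρ n v)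
    rw [h1, h2, hyv]
  · refine LinearMap.ext fun v => ?_
    change f (s (f v)) = f v
    obtain ⟨y, hyv⟩ := hy (f v)
    rw [hs1 _ y hyv, hyv]
    exact hπ2 _ ⟨v, rfl⟩

/-- a subspace invariant under `N` and `C` is the image of an idempotent of `C ∩ D` -/
theorem exists_central (hs : Ssm ρ N) {W : Submodule K V} (hW : Inv ρ N W)
    (hCW : ∀ c ∈ cent ρ N, ∀ w ∈ W, c w ∈ W) :
    ∃ π ∈ cent ρ N, π ∈ dc ρ N ∧ (∀ v, π v ∈ W) ∧ (∀ u ∈ W, π u = u) := by
  obtain ⟨π, hπ, h1, h2⟩ := exists_proj hs hW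
  refine ⟨π, hπ, ?_, h1, h2⟩
  intro c hc
  -- `π c = π c π`
  have h3 : π * c * (1 - π) ∈ cent ρ N :=
    mul_mem_cent (mul_mem_cent hπ hc) ((cent ρ N).sub_mem one_mem_cent hπ)
  obtain ⟨s, hsC, hs1⟩ := regular hs h3
  have h4 : ∀ v, (π * c * (1 - π)) v ∈ W := fun v => h1 _
  have h5 : ∀ w ∈ W, (π * c * (1 - π)) w = 0 := by
    intro w hw
    have e : (1 - π) w = 0 := by
      change w - π w = 0
      rw [h2 w hw, sub_self]
    change π (c ((1 - π) w)) = 0
    rw [e, map_zero, map_zero]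
  have h6 : π * c * (1 - π) = 0 := by
    refine LinearMap.ext fun v => ?_
    have e : (π * c * (1 - π)) v = (π * c * (1 - π)) (s ((π * c * (1 - π)) v)) := by
      conv_lhs => rw [← hs1]
      rfl
    rw [e, h5 _ (hCW s hsC _ (h4 v))]
    rfl
  have h7 : π * c = π * c * π := by
    rw [mul_sub, mul_one, sub_eq_zero] at h6
    exact h6
  have h8 : c * π = π * (c * π) := by
    refine LinearMap.ext fun v => ?_
    exact (h2 _ (hCW c hc _ (h1 v))).symm
  rw [h7, h8, ← mul_assoc]

/-! ### idempotents of `C ∩ D` -/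

/-- idempotents of `C ∩ D` -/
structure Idm (ρ : G →* Module.End K V) (N : Subgroup G) (e : Module.End K V) : Prop where
  hc : e ∈ cent ρ N
  hd : e ∈ dc ρ N
  idem : e * e = e
  ne : e ≠ 0

theorem idm_conj (hC : Inv (ad ρ) ⊤ (cent ρ N)) {e : Module.End K V} (he : Idm ρ N e) (g : G) : Idm ρ N (ad ρ g e) where
  hc := hC g (Subgroup.mem_top _) _ he.hc
  hd := dc_inv hC g (Subgroup.mem_top _) _ he.hd
  idem := by rw [← ad_mul, he.idem]
  ne := by
    intro h
    apply he.ne
    have h1 := ad_ad_inv (ρ := ρ) g⁻¹ e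
    rw [inv_inv, h, map_zero] at h1
    exact h1.symm

theorem finrank_range_ad (g : G) (e : Module.End K V) :
    finrank K (LinearMap.range (ad ρ g e)) = finrank K (LinearMap.range e) := by
  have hinv : ∀ v, ρ g⁻¹ (ρ g v) = v := fun v => by
    have h1 : (ρ g⁻¹ * ρ g) v = v := by rw [← map_mul, inv_mul_cancel, map_one]; rfl
    exact h1
  have hinj : Function.Injective (ρ g) := fun x y hxy => by
    rw [← hinv x, ← hinv y, hxy]
  have h1 : LinearMap.range (ad ρ g e) = (LinearMap.range e).map (ρ g) := by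
    ext x
    constructor
    · rintro ⟨v, rfl⟩
      exact ⟨e (ρ g⁻¹ v), ⟨_, rfl⟩, rfl⟩
    · rintro ⟨_, ⟨v, rfl⟩, rfl⟩
      refine ⟨ρ g v, ?_⟩
      change ρ g (e (ρ g⁻¹ (ρ g v))) = ρ g (e v)
      rw [hinv]
  rw [h1]
  exact (Submodule.equivMapOfInjective (ρ g) hinj (LinearMap.range e)).symm.finrank_eq

/-- two idempotents of minimal rank are orthogonal or equal -/
theorem idm_orth [FiniteDimensional K V] {m : ℕ} (hmin : ∀ e, Idm ρ N e → m ≤ finrank K (LinearMap.range e))
    {e f : Module.End K V} (he : Idm ρ N e) (hf : Idm ρ N f) (he1 : finrank K (LinearMap.range e) = m)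
    (hf1 : finrank K (LinearMap.range f) = m) (hne : e ≠ f) : e * f = 0 := by
  by_contra h0
  have hcomm : e * f = f * e := he.hd f hf.hc
  have h1 : Idm ρ N (e * f) :=
    { hc := mul_mem_cent he.hc hf.hc
      hd := mul_mem_dc he.hd hf.hd
      idem := by
        calc e * f * (e * f) = e * (f * e) * f := by simp only [mul_assoc]
          _ = (e * e) * (f * f) := by rw [← hcomm]; simp only [mul_assoc]
          _ = e * f := by rw [he.idem, hf.idem]
      ne := h0 }
  have h2 := hmin _ h1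
  have h3 : LinearMap.range (e * f) = LinearMap.range e := by
    refine Submodule.eq_of_le_of_finrank_le ?_ (he1.trans_le h2)
    rintro _ ⟨v, rfl⟩
    exact ⟨f v, rfl⟩
  have h4 : LinearMap.range (e * f) = LinearMap.range f := by
    refine Submodule.eq_of_le_of_finrank_le ?_ (hf1.trans_le h2)
    rw [hcomm]
    rintro _ ⟨v, rfl⟩
    exact ⟨e v, rfl⟩
  apply hne
  have h5 : f * e = e := by
    refine LinearMap.ext fun v => ?_
    have h6 : e v ∈ LinearMap.range f := by
      rw [← h4, h3]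
      exact ⟨v, rfl⟩
    obtain ⟨w, hw⟩ := h6
    change f (e v) = e v
    rw [← hw]
    exact LinearMap.congr_fun hf.idem w
  have h6 : e * f = f := by
    refine LinearMap.ext fun v => ?_
    have h7 : f v ∈ LinearMap.range e := by
      rw [← h3, h4]
      exact ⟨v, rfl⟩
    obtain ⟨w, hw⟩ := h7
    change e (f v) = f v
    rw [← hw]
    exact LinearMap.congr_fun he.idem w
  rw [← h5, ← hcomm, h6]

/-- the stabiliser of `e` -/
def stab (ρ : G →* Module.End K V) (e : Module.End K V) : Subgroup G where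
  carrier := {g | ad ρ g e = e}
  one_mem' := by
    change ad ρ 1 e = e
    rw [map_one]
    rfl
  mul_mem' := by
    intro x y hx hy
    change ad ρ (x * y) e = e
    rw [map_mul]
    change ad ρ x (ad ρ y e) = e
    rw [show ad ρ y e = e from hy]
    exact hx
  inv_mem' := by
    intro x hx
    change ad ρ x⁻¹ e = e
    have h1 := ad_ad_inv (ρ := ρ) x⁻¹ e
    rw [inv_inv, show ad ρ x e = e from hx] at h1
    exact h1

theorem mem_stab {e : Module.End K V} {g : G} : g ∈ stab ρ e ↔ ad ρ g e = e := Iff.rfl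

theorem index_stab_le [Finite G] [FiniteDimensional K V] (hC : Inv (ad ρ) ⊤ (cent ρ N)) {m : ℕ}
    (hmin : ∀ e, Idm ρ N e → m ≤ finrank K (LinearMap.range e)) {e : Module.End K V} (he : Idm ρ N e)
    (he1 : finrank K (LinearMap.range e) = m) : (stab ρ e).index ≤ finrank K V := by
  classical
  have := Fintype.ofFinite (G ⧸ stab ρ e)
  obtain ⟨v, hv⟩ : ∃ v, e v ≠ 0 := by
    by_contra hcon
    push Not at hcon
    exact he.ne (LinearMap.ext hcon)
  have horth : ∀ x y : G ⧸ stab ρ e, x ≠ y → ad ρ x.out e * ad ρ y.out e = 0 := by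
    intro x y hxy
    refine idm_orth hmin (idm_conj hC he _) (idm_conj hC he _) ((finrank_range_ad _ _).trans he1)
      ((finrank_range_ad _ _).trans he1) ?_
    intro h1
    apply hxy
    have h2 : x.out⁻¹ * y.out ∈ stab ρ e := by
      rw [mem_stab, map_mul]
      change ad ρ x.out⁻¹ (ad ρ y.out e) = e
      rw [← h1]
      have h3 := ad_ad_inv (ρ := ρ) x.out⁻¹ e
      rwa [inv_inv] at h3
    have h3 : (QuotientGroup.mk x.out : G ⧸ stab ρ e) = QuotientGroup.mk y.out := QuotientGroup.eq.2 h2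
    rw [QuotientGroup.out_eq', QuotientGroup.out_eq'] at h3
    exact h3
  have hinv : ∀ (g : G) (v : V), ρ g⁻¹ (ρ g v) = v := fun g v => by
    have h1 : (ρ g⁻¹ * ρ g) v = v := by rw [← map_mul, inv_mul_cancel, map_one]; rfl
    exact h1
  have hee : e (e v) = e v := LinearMap.congr_fun he.idem v
  have hfix : ∀ x : G ⧸ stab ρ e, ad ρ x.out e (ρ x.out (e v)) = ρ x.out (e v) := by
    intro x
    change ρ x.out (e (ρ x.out⁻¹ (ρ x.out (e v)))) = _
    rw [hinv, hee]
  have hne : ∀ x : G ⧸ stab ρ e, ρ x.out (e v) ≠ 0 := by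
    intro x h1
    apply hv
    rw [← hinv x.out (e v), h1, map_zero]
  have hli : LinearIndependent K (fun x : G ⧸ stab ρ e => ρ x.out (e v)) := by
    rw [linearIndependent_iff']
    intro s g hs i hi
    have h1 := congrArg (ad ρ i.out e) hs
    rw [map_sum, map_zero, Finset.sum_eq_single_of_mem i hi] at h1
    · rw [map_smul, hfix, smul_eq_zero] at h1
      exact h1.resolve_right (hne i)
    · intro j _ hji
      rw [map_smul, ← hfix j]
      have h2 : (ad ρ i.out e) (ad ρ j.out e (ρ j.out (e v))) = 0 := by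
        have h3 := LinearMap.congr_fun (horth i j (Ne.symm hji)) (ρ j.out (e v))
        exact h3
      rw [h2, smul_zero]
  rw [Subgroup.index, Nat.card_eq_fintype_card]
  exact hli.fintype_card_le_finrank

/-- the idempotents of `C ∩ D` are `0` and `1` -/
theorem idm_eq_one [Finite G] [FiniteDimensional K V] (hirr : Irr ρ ⊤)
    (hidx : ∀ M : Subgroup G, M.index ≤ finrank K V → M = ⊤) (hC : Inv (ad ρ) ⊤ (cent ρ N)) {e : Module.End K V}
    (he : Idm ρ N e) : e = 1 := by
  classical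
  have hex : ∃ m : ℕ, ∃ e, Idm ρ N e ∧ finrank K (LinearMap.range e) = m := ⟨_, e, he, rfl⟩
  obtain ⟨e0, he0, he1⟩ := Nat.find_spec hex
  have hmin : ∀ f, Idm ρ N f → Nat.find hex ≤ finrank K (LinearMap.range f) := fun f hf =>
    Nat.find_min' hex ⟨f, hf, rfl⟩
  have h1 := hidx _ (index_stab_le hC hmin he0 he1)
  have h2 : Inv ρ ⊤ (LinearMap.range e0) := by
    rintro g _ _ ⟨v, rfl⟩
    have h3 : ad ρ g e0 = e0 := by
      rw [← mem_stab, h1]
      trivial
    refine ⟨ρ g (e0 v), ?_⟩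
    have h4 : (ρ g⁻¹ * ρ g) (e0 v) = e0 v := by rw [← map_mul, inv_mul_cancel, map_one]; rfl
    have h5 : ρ g⁻¹ (ρ g (e0 v)) = e0 v := h4
    calc e0 (ρ g (e0 v)) = (ad ρ g e0) (ρ g (e0 v)) := by rw [h3]
      _ = ρ g (e0 (ρ g⁻¹ (ρ g (e0 v)))) := rfl
      _ = ρ g (e0 (e0 v)) := by rw [h5]
      _ = ρ g (e0 v) := congrArg _ (LinearMap.congr_fun he0.idem v)
  have h3 : LinearMap.range e0 = ⊤ := by
    rcases hirr.2 _ h2 with h4 | h4
    · exact absurd (LinearMap.range_eq_bot.1 h4) he0.ne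
    · exact h4
  have h4 : finrank K V ≤ finrank K (LinearMap.range e) := by
    have h5 := hmin e he
    rwa [← he1, h3, finrank_top] at h5
  have h5 : LinearMap.range e = ⊤ := Submodule.eq_top_of_finrank_eq (le_antisymm (Submodule.finrank_le _) h4)
  refine LinearMap.ext fun v => ?_
  obtain ⟨w, rfl⟩ := LinearMap.range_eq_top.1 h5 v
  exact LinearMap.congr_fun he.idem w

/-- a subspace invariant under `N` and `C` is trivial -/
theorem eq_top_of_inv [Finite G] [FiniteDimensional K V] (hirr : Irr ρ ⊤)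
    (hidx : ∀ M : Subgroup G, M.index ≤ finrank K V → M = ⊤) (hC : Inv (ad ρ) ⊤ (cent ρ N)) (hs : Ssm ρ N)
    {W : Submodule K V} (hW : Inv ρ N W) (hCW : ∀ c ∈ cent ρ N, ∀ w ∈ W, c w ∈ W) (h0 : W ≠ ⊥) : W = ⊤ := by
  obtain ⟨π, h1, h2, h3, h4⟩ := exists_central hs hW hCW
  obtain ⟨w, hw, hw0⟩ := W.ne_bot_iff.1 h0
  have h5 : Idm ρ N π :=
    { hc := h1
      hd := h2
      idem := LinearMap.ext fun v => h4 _ (h3 v)
      ne := by
        rintro rfl
        exact hw0 ((h4 w hw).symm.trans (by rfl)) }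
  have h6 := idm_eq_one hirr hidx hC h5
  rw [eq_top_iff]
  intro v _
  have h7 := h3 v
  rw [h6] at h7
  exact h7

/-! ### the ranks of the elements of `C` and `D` -/

/-- `C u` -/
def orb (ρ : G →* Module.End K V) (N : Subgroup G) (u : V) : Submodule K V := (cent ρ N).map (LinearMap.applyₗ u)

theorem mem_orb {u x : V} : x ∈ orb ρ N u ↔ ∃ c ∈ cent ρ N, c u = x := Iff.rfl

/-- `D u` -/
def dorb (ρ : G →* Module.End K V) (N : Subgroup G) (u : V) : Submodule K V := (dc ρ N).map (LinearMap.applyₗ u)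

theorem mem_dorb {u x : V} : x ∈ dorb ρ N u ↔ ∃ c ∈ dc ρ N, c u = x := Iff.rfl

theorem one_mem_dc : (1 : Module.End K V) ∈ dc ρ N := fun n _ => by rw [one_mul, mul_one]

/-- `D u = U` for the image `U` of an element of minimal rank of `C` -/
theorem dorb_eq [FiniteDimensional K V] (hs : Ssm ρ N) {l : ℕ}
    (hmin : ∀ c ∈ cent ρ N, c ≠ 0 → l ≤ finrank K (LinearMap.range c)) {U : Submodule K V} (hU : Inv ρ N U)
    (hl : finrank K U = l) {u : V} (hu : u ∈ U) (hu0 : u ≠ 0) : dorb ρ N u = U := by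
  have h1 : dorb ρ N u ≤ U := by
    rintro _ ⟨d, hd, rfl⟩
    exact dc_apply_mem hs hU hd hu
  have h2 : Inv ρ N (dorb ρ N u) := by
    rintro n hn _ ⟨d, hd, rfl⟩
    exact ⟨ρ n * d, mul_mem_dc (rho_mem_dc hn) hd, rfl⟩
  obtain ⟨π, hπ, h3, h4⟩ := exists_proj hs h2
  have h5 : u ∈ dorb ρ N u := ⟨1, one_mem_dc, rfl⟩
  have h6 : π ≠ 0 := by
    rintro rfl
    exact hu0 ((h4 u h5).symm.trans (by rfl))
  have h7 : LinearMap.range π ≤ dorb ρ N u := by
    rintro _ ⟨v, rfl⟩
    exact h3 v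
  refine Submodule.eq_of_le_of_finrank_le h1 ?_
  rw [hl]
  exact (hmin π hπ h6).trans (Submodule.finrank_mono h7)

theorem rank_bound [Finite G] [FiniteDimensional K V] (hirr : Irr ρ ⊤)
    (hidx : ∀ M : Subgroup G, M.index ≤ finrank K V → M = ⊤) (hC : Inv (ad ρ) ⊤ (cent ρ N)) (hs : Ssm ρ N) :
    ∃ l : ℕ, (∀ c ∈ cent ρ N, c ≠ 0 → l ≤ finrank K (LinearMap.range c)) ∧
      ∀ d ∈ dc ρ N, d ≠ 0 → finrank K V ≤ l * finrank K (LinearMap.range d) := by
  classical
  have := hirr.1
  have hex : ∃ l : ℕ, ∃ c ∈ cent ρ N, c ≠ 0 ∧ finrank K (LinearMap.range c) = l :=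
    ⟨_, 1, one_mem_cent, one_ne_zero, rfl⟩
  obtain ⟨c0, hc0, hc1, hc2⟩ := Nat.find_spec hex
  set l := Nat.find hex with hl
  have hmin : ∀ c ∈ cent ρ N, c ≠ 0 → l ≤ finrank K (LinearMap.range c) := fun c hc hc' =>
    Nat.find_min' hex ⟨c, hc, hc', rfl⟩
  set U := LinearMap.range c0 with hUdef
  have hU : Inv ρ N U := by
    rintro n hn _ ⟨v, rfl⟩
    exact ⟨ρ n v, LinearMap.congr_fun (hc0 n hn) v⟩
  refine ⟨l, hmin, ?_⟩
  -- `C U = V`
  set W : Submodule K V := Submodule.span K {x | ∃ c ∈ cent ρ N, ∃ u ∈ U, c u = x} with hW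
  have hWtop : W = ⊤ := by
    refine eq_top_of_inv hirr hidx hC hs ?_ ?_ ?_
    · intro n hn v hv
      refine Submodule.span_induction (p := fun v _ => ρ n v ∈ W) ?_ ?_ ?_ ?_ hv
      · rintro _ ⟨c, hc, u, hu, rfl⟩
        apply Submodule.subset_span
        exact ⟨c, hc, ρ n u, hU n hn u hu, LinearMap.congr_fun (hc n hn) u⟩
      · rw [map_zero]; exact W.zero_mem
      · intro x y _ _ hx hy
        rw [map_add]; exact W.add_mem hx hy
      · intro a x _ hx
        rw [map_smul]; exact W.smul_mem a hx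
    · intro c hc v hv
      refine Submodule.span_induction (p := fun v _ => c v ∈ W) ?_ ?_ ?_ ?_ hv
      · rintro _ ⟨c', hc', u, hu, rfl⟩
        apply Submodule.subset_span
        exact ⟨c * c', mul_mem_cent hc hc', u, hu, rfl⟩
      · rw [map_zero]; exact W.zero_mem
      · intro x y _ _ hx hy
        rw [map_add]; exact W.add_mem hx hy
      · intro a x _ hx
        rw [map_smul]; exact W.smul_mem a hx
    · intro h1
      apply hc1
      refine LinearMap.ext fun v => ?_
      have h2 : c0 v ∈ W := Submodule.subset_span ⟨1, one_mem_cent, c0 v, ⟨v, rfl⟩, rfl⟩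
      rw [h1, Submodule.mem_bot] at h2
      exact h2
  -- `dim V ≤ l dim (C u)`
  have hu : ∀ u ∈ U, u ≠ 0 → finrank K V ≤ l * finrank K (orb ρ N u) := by
    intro u hu hu0
    have hD := dorb_eq hs hmin hU hc2 hu hu0
    set b := Module.finBasis K U with hb
    have hd : ∀ j, ∃ d ∈ dc ρ N, d u = b j := by
      intro j
      have h1 : ((b j : U) : V) ∈ dorb ρ N u := by rw [hD]; exact (b j).2
      exact h1
    choose d hd1 hd2 using hd
    set T : (Fin (finrank K U) → orb ρ N u) →ₗ[K] V :=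
      ∑ j, ((d j).comp (orb ρ N u).subtype).comp (LinearMap.proj j) with hT
    have hTa : ∀ x, T x = ∑ j, d j (x j) := by
      intro x
      rw [hT, LinearMap.sum_apply]
      rfl
    have h1 : W ≤ LinearMap.range T := by
      rw [hW, Submodule.span_le]
      rintro _ ⟨c, hc, u', hu', rfl⟩
      refine ⟨fun j => b.repr ⟨u', hu'⟩ j • ⟨c u, c, hc, rfl⟩, ?_⟩
      rw [hTa]
      have h2 : u' = ∑ j, b.repr ⟨u', hu'⟩ j • d j u := by
        have h3 := congrArg Subtype.val (b.sum_repr ⟨u', hu'⟩)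
        rw [AddSubmonoidClass.coe_finsetSum] at h3
        simp only [hd2]
        exact h3.symm
      conv_rhs => rw [h2, map_sum]
      refine Finset.sum_congr rfl fun j _ => ?_
      change d j (b.repr ⟨u', hu'⟩ j • c u) = c (b.repr ⟨u', hu'⟩ j • d j u)
      rw [map_smul, map_smul]
      exact congrArg _ (LinearMap.congr_fun (hd1 j c hc) u)
    rw [hWtop, top_le_iff] at h1
    have h2 := LinearMap.finrank_range_le T
    rw [h1, finrank_top, Module.finrank_pi_fintype, Finset.sum_const, Finset.card_univ, Fintype.card_fin, hc2,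
      smul_eq_mul] at h2
    exact h2
  intro d hd hd0
  obtain ⟨c, hc, u', hu', h1⟩ : ∃ c ∈ cent ρ N, ∃ u' ∈ U, d (c u') ≠ 0 := by
    by_contra hcon
    push Not at hcon
    apply hd0
    refine LinearMap.ext fun v => ?_
    have hv : v ∈ W := by rw [hWtop]; trivial
    refine Submodule.span_induction (p := fun v _ => d v = 0) ?_ ?_ ?_ ?_ hv
    · rintro _ ⟨c, hc, u, hu, rfl⟩
      exact hcon c hc u hu
    · exact map_zero d
    · intro x y _ _ hx hy
      rw [map_add, hx, hy, add_zero]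
    · intro a x _ hx
      rw [map_smul, hx, smul_zero]
  have h2 : d (c u') = c (d u') := LinearMap.congr_fun (hd c hc) u'
  have h3 : d u' ≠ 0 := by
    intro h4
    rw [h2, h4, map_zero] at h1
    exact h1 rfl
  have h4 : orb ρ N (d u') ≤ LinearMap.range d := by
    rintro _ ⟨c', hc', rfl⟩
    exact ⟨c' u', LinearMap.congr_fun (hd c' hc') u'⟩
  exact (hu (d u') (dc_apply_mem hs hU hd hu') h3).trans (Nat.mul_le_mul_left l (Submodule.finrank_mono h4))

theorem finrank_range_mul_le [FiniteDimensional K V] (a X : Module.End K V) :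
    finrank K (LinearMap.range (a * X * a)) ≤ finrank K (LinearMap.range a) := by
  apply Submodule.finrank_mono
  rintro _ ⟨v, rfl⟩
  exact ⟨X (a v), rfl⟩

/-- E1, without superfluous hypotheses -/
theorem tprim_of_roots' {F : Subfield K} [Finite F] (h3 : 3 ≤ Nat.card F) [Finite G] [FiniteDimensional K V]
    (hirr : Irr ρ ⊤) (hidx : ∀ M : Subgroup G, M.index ≤ Module.finrank K V → M = ⊤) (A : Set (Module.End K V)) {r : ℕ}
    (hA : ∀ a ∈ A, Rt ρ F ⊤ a ∧ Module.finrank K (LinearMap.range a) ≤ r) (hr : r ^ 2 < Module.finrank K V)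
    (hX : ∀ X : Module.End K V, (∀ a ∈ A, a * X * a = 0) → ∃ c : K, X = c • 1) : TPrim ρ := by
  intro N hs hC
  obtain ⟨l, h1, h2⟩ := rank_bound hirr hidx hC hs
  by_cases hl : r < l
  · right
    intro X hXC
    refine hX X fun a ha => ?_
    by_contra hne
    have h4 := h1 _ (root_mem h3 hC (hA a ha).1 hXC).2 hne
    have h5 := finrank_range_mul_le a X
    have h6 := (hA a ha).2
    omega
  · left
    intro n hn
    refine hX (ρ n) fun a ha => ?_
    by_contra hne
    have h4 := h2 _ (root_mem h3 (dc_inv hC) (hA a ha).1 (rho_mem_dc hn)).2 hne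
    have h5 := (finrank_range_mul_le a (ρ n)).trans (hA a ha).2
    have h6 : l * finrank K (LinearMap.range (a * ρ n * a)) ≤ r * r := Nat.mul_le_mul (not_lt.1 hl) h5
    rw [← pow_two] at h6
    omega

end

/-- E1 -/
theorem tprim_of_roots {K : Type u} [Field K] [IsAlgClosed K] {F : Subfield K} [Finite F] (h3 : 3 ≤ Nat.card F)
    {G : Type w} [Group G] [Finite G] (_hG : QS G) {V : Type v} [AddCommGroup V] [Module K V]
    [FiniteDimensional K V] {ρ : G →* Module.End K V} (hirr : Irr ρ ⊤)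
    (hidx : ∀ M : Subgroup G, M.index ≤ Module.finrank K V → M = ⊤) (A : Set (Module.End K V)) {r : ℕ}
    (hA : ∀ a ∈ A, Rt ρ F ⊤ a ∧ Module.finrank K (LinearMap.range a) ≤ r) (hr : r ^ 2 < Module.finrank K V)
    (hX : ∀ X : Module.End K V, (∀ a ∈ A, a * X * a = 0) → ∃ c : K, X = c • 1) : TPrim ρ :=
  tprim_of_roots' h3 hirr hidx A hA hr hX

end Cfsg.Agent.H168.BR
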